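import Cfsg.Agent.H142.Rd.Tab

/-!
# S3691, P1b: prime divisors of the order of `p` modulo prime divisors of `|S|` (helper142)
-/

set_option autoImplicit false

namespace Cfsg.Agent.H142.Rd

open Cfsg Cfsg.Agent.OrdDiv

universe u

theorem two_mul_half (n : ℕ) : 2 * (n * (n - 1) / 2) = n * (n - 1) :=
  Nat.mul_div_cancel' (Nat.even_mul_pred_self n).two_dvd

theorem tri_le {l n : ℕ} (h : l ≤ n) : l * (l - 1) ≤ n * (n - 1) := Nat.mul_le_mul h (by omega)

/-- a prime `l ≥ 5` dividing twice an exponent is small -/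
theorem Kind.bound {N : ℕ} {D U : ℕ → Prop} (h : Kind N D U) {l : ℕ} (hl : l.Prime) (hl5 : 5 ≤ l) {d : ℕ}
    (hd : D d ∨ U d) (hld : l ∣ d) : l * (l - 1) ≤ 2 * N := by
  have key : ∀ i, l ∣ 2 * i → 1 ≤ i → l ≤ i := by
    intro i h1 hi
    rcases hl.dvd_mul.1 h1 with h2 | h2
    · have := Nat.le_of_dvd (by norm_num) h2
      omega
    · exact Nat.le_of_dvd hi h2
  have small : ∀ (L : List ℕ) (B : ℕ), d ∈ L → (∀ x ∈ L, ∀ y ∈ Nat.divisors x, 5 ≤ y → y.Prime → y * (y - 1) ≤ B) →
      (∀ x ∈ L, x ≠ 0) → l * (l - 1) ≤ B := fun L B h1 h2 h3 =>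
    h2 d h1 l (Nat.mem_divisors.2 ⟨hld, h3 d h1⟩) hl5 hl
  cases h with
  | A n hn =>
    rw [two_mul_half]
    rcases hd with ⟨h1, h2⟩ | h
    · exact tri_le ((Nat.le_of_dvd (by omega) hld).trans h2)
    · exact h.elim
  | B m hm =>
    rcases hd with ⟨i, h1, h2, rfl⟩ | h
    · have h3 := key i hld h1
      calc l * (l - 1) ≤ m * m := Nat.mul_le_mul (by omega) (by omega)
        _ ≤ 2 * m ^ 2 := by rw [pow_two]; omega
    · exact h.elim
  | D m hm =>
    have h4 : l ≤ m := by
      rcases hd with (rfl | ⟨i, h1, h2, rfl⟩) | h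
      · exact Nat.le_of_dvd (by omega) hld
      · have := key i hld h1
        omega
      · exact h.elim
    have := tri_le h4
    omega
  | D2 m hm =>
    have h4 : l ≤ m := by
      rcases hd with ⟨i, h1, h2, rfl⟩ | h
      · have := key i hld h1
        omega
      · exact h.elim
    have := tri_le h4
    omega
  | U n hn =>
    rw [two_mul_half]
    rcases hd with ⟨h0, h1, h2⟩ | ⟨h0, h2⟩
    · exact tri_le ((Nat.le_of_dvd (by omega) hld).trans h2)
    · exact tri_le ((Nat.le_of_dvd h0.pos hld).trans h2)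
  | G2 => exact hd.elim (fun h => small _ _ h (by decide) (by decide)) fun h => h.elim
  | F4 => exact hd.elim (fun h => small _ _ h (by decide) (by decide)) fun h => h.elim
  | E6 => exact hd.elim (fun h => small _ _ h (by decide) (by decide)) fun h => h.elim
  | E7 => exact hd.elim (fun h => small _ _ h (by decide) (by decide)) fun h => h.elim
  | E8 => exact hd.elim (fun h => small _ _ h (by decide) (by decide)) fun h => h.elim
  | TE6 => exact hd.elim (fun h => small _ _ h (by decide) (by decide)) fun h => small _ _ h (by decide) (by decide)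
  | TD4 => exact hd.elim (fun h => small _ _ h (by decide) (by decide)) fun h => h.elim
  | Sz => exact hd.elim (fun h => small _ _ h (by decide) (by decide)) fun h => h.elim
  | Ree => exact hd.elim (fun h => small _ _ h (by decide) (by decide)) fun h => h.elim
  | TF4 => exact hd.elim (fun h => small _ _ h (by decide) (by decide)) fun h => h.elim

/-- (P1b) -/
theorem prm_lie (tab : OrdDiv.OrderTable.{u}) {S : Type u} [Group S] [Finite S] [IsSimpleGroup S]
    (_hna : ¬ IsMulCommutative S) {p l r : ℕ} (hp : p.Prime) (hS : IsLieTypeChar p S) (hl : l.Prime) (hl5 : 5 ≤ l)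
    (hr : r.Prime) (hlr : l ∣ orderOf (p : ZMod r)) (hr0 : 0 < orderOf (p : ZMod r)) (hrS : r ∣ Nat.card S) :
    l ∣ (Nat.card S).factorization p ∨ l * (l - 1) ≤ 2 * (Nat.card S).factorization p := by
  obtain ⟨g, N, D, U, hg, hK, hD⟩ := exists_kind tab hp hS
  have hrp : r ≠ p := by
    rintro rfl
    rw [ZMod.natCast_self, orderOf_pos_iff, isOfFinOrder_iff_pow_eq_one] at hr0
    obtain ⟨n, hn, h⟩ := hr0
    have := Fact.mk hr
    rw [zero_pow hn.ne'] at h
    exact zero_ne_one h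
  have hd : ∃ d, (D d ∨ U d) ∧ l ∣ 2 * (g * d) := by
    rcases hD.pr r hr hrS hrp with ⟨d, h1, h2⟩ | ⟨i, h1, h2⟩
    · rw [Cfsg.Agent.Lib.Zsigmondy.dvd_pow_sub_one_iff hp.one_le] at h2
      exact ⟨d, Or.inl h1, Dvd.dvd.mul_left (hlr.trans h2) 2⟩
    · have h3 := h2.trans (add_dvd p (g * i))
      rw [Cfsg.Agent.Lib.Zsigmondy.dvd_pow_sub_one_iff hp.one_le] at h3
      exact ⟨i, Or.inr h1, hlr.trans h3⟩
  obtain ⟨d, h1, h2⟩ := hd
  rw [hD.val]
  rcases hl.dvd_mul.1 h2 with h3 | h3
  · have := Nat.le_of_dvd (by norm_num) h3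
    omega
  rcases hl.dvd_mul.1 h3 with h4 | h4
  · exact Or.inl (Dvd.dvd.mul_right h4 N)
  · right
    refine (hK.bound hl hl5 h1 h4).trans ?_
    exact Nat.mul_le_mul_left 2 (Nat.le_mul_of_pos_left N hg)

end Cfsg.Agent.H142.Rd
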