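import Cfsg.Agent.OrdDiv.Main
import Cfsg.Agent.Lib.Zsigmondy
import Cfsg.Prelude.Def_LieTypeChar

/-!
# S3691, P1: the prime divisors of the groups of Lie type in characteristic `p` (helper142)

`exists_kind`: `|S|_p = p ^ (g N)` and a prime `t ≠ p` dividing `|S|` divides `p ^ (g d) - 1` with `D d` or `p ^ (g i) + 1` with
`U i`, where `(N, D, U)` is one of the kinds `Kind`.
-/

set_option autoImplicit false

namespace Cfsg.Agent.H142.Rd

open Cfsg Cfsg.Agent.OrdDiv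

universe u

/-- numerical data: `|S|_p = p ^ (g N)`, primes `t ≠ p` dividing `c` divide `p ^ (g d) - 1` with `D d` or `p ^ (g i) + 1` with
`U i` -/
structure Dat (p c g N : ℕ) (D U : ℕ → Prop) : Prop where
  val : c.factorization p = g * N
  pr : ∀ t, t.Prime → t ∣ c → t ≠ p → (∃ d, D d ∧ t ∣ p ^ (g * d) - 1) ∨ (∃ i, U i ∧ t ∣ p ^ (g * i) + 1)

/-- the kinds: number of positive roots, exponents with sign -, exponents with sign + -/
inductive Kind : ℕ → (ℕ → Prop) → (ℕ → Prop) → Prop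
  | A (n : ℕ) (hn : 2 ≤ n) : Kind (n * (n - 1) / 2) (fun d => 2 ≤ d ∧ d ≤ n) (fun _ => False)
  | B (m : ℕ) (hm : 2 ≤ m) : Kind (m ^ 2) (fun d => ∃ i, 1 ≤ i ∧ i ≤ m ∧ d = 2 * i) (fun _ => False)
  | D (m : ℕ) (hm : 4 ≤ m) : Kind (m * (m - 1)) (fun d => d = m ∨ ∃ i, 1 ≤ i ∧ i < m ∧ d = 2 * i) (fun _ => False)
  | D2 (m : ℕ) (hm : 4 ≤ m) : Kind (m * (m - 1)) (fun d => ∃ i, 1 ≤ i ∧ i ≤ m ∧ d = 2 * i) (fun _ => False)
  | U (n : ℕ) (hn : 3 ≤ n) : Kind (n * (n - 1) / 2) (fun d => Even d ∧ 2 ≤ d ∧ d ≤ n) (fun i => Odd i ∧ i ≤ n)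
  | G2 : Kind 6 (fun d => d ∈ ([2, 6] : List ℕ)) (fun _ => False)
  | F4 : Kind 24 (fun d => d ∈ ([2, 6, 8, 12] : List ℕ)) (fun _ => False)
  | E6 : Kind 36 (fun d => d ∈ ([2, 5, 6, 8, 9, 12] : List ℕ)) (fun _ => False)
  | E7 : Kind 63 (fun d => d ∈ ([2, 6, 8, 10, 12, 14, 18] : List ℕ)) (fun _ => False)
  | E8 : Kind 120 (fun d => d ∈ ([2, 8, 12, 14, 18, 20, 24, 30] : List ℕ)) (fun _ => False)
  | TE6 : Kind 36 (fun d => d ∈ ([2, 6, 8, 12] : List ℕ)) (fun i => i ∈ ([5, 9] : List ℕ))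
  | TD4 : Kind 12 (fun d => d ∈ ([2, 6, 12] : List ℕ)) (fun _ => False)
  | Sz : Kind 2 (fun d => d ∈ ([1, 4] : List ℕ)) (fun _ => False)
  | Ree : Kind 3 (fun d => d ∈ ([1, 6] : List ℕ)) (fun _ => False)
  | TF4 : Kind 12 (fun d => d ∈ ([1, 4, 6, 12] : List ℕ)) (fun _ => False)

/-! ### products -/

/-- factors -/
def Pr (p g : ℕ) (D U : ℕ → Prop) (R : ℕ) : Prop :=
  ¬ p ∣ R ∧ ∀ t, t.Prime → t ∣ R → (∃ d, D d ∧ t ∣ (p ^ g) ^ d - 1) ∨ (∃ i, U i ∧ t ∣ (p ^ g) ^ i + 1)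

section

variable {p g : ℕ} {D U : ℕ → Prop}

theorem Pr.mul (hp : p.Prime) {R R' : ℕ} (h : Pr p g D U R) (h' : Pr p g D U R') : Pr p g D U (R * R') :=
  ⟨fun h1 => (hp.dvd_mul.1 h1).elim h.1 h'.1, fun t ht h1 => (ht.dvd_mul.1 h1).elim (h.2 t ht) (h'.2 t ht)⟩

theorem Pr.of_dvd {R R' : ℕ} (h : Pr p g D U R) (h' : R' ∣ R) : Pr p g D U R' :=
  ⟨fun h1 => h.1 (h1.trans h'), fun t ht h1 => h.2 t ht (h1.trans h')⟩

theorem Pr.prod (hp : p.Prime) (n : ℕ) {f : ℕ → ℕ} (h : ∀ i < n, Pr p g D U (f i)) :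
    Pr p g D U (∏ i ∈ Finset.range n, f i) := by
  induction n with
  | zero =>
    rw [Finset.prod_range_zero]
    exact ⟨fun h1 => hp.one_lt.ne' (Nat.dvd_one.1 h1), fun t ht h1 => absurd (Nat.dvd_one.1 h1) ht.one_lt.ne'⟩
  | succ n ih =>
    rw [Finset.prod_range_succ]
    exact (ih fun i hi => h i (by omega)).mul hp (h n (by omega))

theorem not_dvd_sub (hp : p.Prime) (hg : 1 ≤ g) {k : ℕ} (hk : 1 ≤ k) : ¬ p ∣ (p ^ g) ^ k - 1 := by
  intro h5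
  have h6 : p ∣ (p ^ g) ^ k := dvd_pow (dvd_pow_self p (by omega)) (by omega)
  have h7 : 1 ≤ (p ^ g) ^ k := Nat.one_le_pow _ _ (Nat.pow_pos hp.pos)
  have h8 := Nat.dvd_sub h6 h5
  rw [Nat.sub_sub_self h7] at h8
  exact hp.one_lt.ne' (Nat.dvd_one.1 h8)

theorem not_dvd_add (hp : p.Prime) (hg : 1 ≤ g) {k : ℕ} (hk : 1 ≤ k) : ¬ p ∣ (p ^ g) ^ k + 1 := by
  intro h5
  have h6 : p ∣ (p ^ g) ^ k := dvd_pow (dvd_pow_self p (by omega)) (by omega)
  exact hp.one_lt.ne' (Nat.dvd_one.1 ((Nat.dvd_add_right h6).1 h5))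

theorem sub_dvd (q k : ℕ) : q ^ k - 1 ∣ q ^ (2 * k) - 1 := by
  have h2 : q ^ (2 * k) - 1 = (q ^ k + 1) * (q ^ k - 1) := by
    rw [mul_comm 2 k, pow_mul, ← Nat.sq_sub_sq, one_pow]
  rw [h2]
  exact Dvd.intro_left _ rfl

theorem add_dvd (q k : ℕ) : q ^ k + 1 ∣ q ^ (2 * k) - 1 := by
  have h2 : q ^ (2 * k) - 1 = (q ^ k + 1) * (q ^ k - 1) := by
    rw [mul_comm 2 k, pow_mul, ← Nat.sq_sub_sq, one_pow]
  rw [h2]
  exact Dvd.intro _ rfl

theorem Pr.sub (hp : p.Prime) (hg : 1 ≤ g) {k : ℕ} (hk : 1 ≤ k) (h : D k) : Pr p g D U ((p ^ g) ^ k - 1) :=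
  ⟨not_dvd_sub hp hg hk, fun _ _ h1 => Or.inl ⟨k, h, h1⟩⟩

theorem Pr.add (hp : p.Prime) (hg : 1 ≤ g) {k : ℕ} (hk : 1 ≤ k) (h : U k) : Pr p g D U ((p ^ g) ^ k + 1) :=
  ⟨not_dvd_add hp hg hk, fun _ _ h1 => Or.inr ⟨k, h, h1⟩⟩

theorem Pr.add' (hp : p.Prime) (hg : 1 ≤ g) {k : ℕ} (hk : 1 ≤ k) (h : D (2 * k)) : Pr p g D U ((p ^ g) ^ k + 1) :=
  ⟨not_dvd_add hp hg hk, fun _ _ h1 => Or.inl ⟨2 * k, h, h1.trans (add_dvd _ _)⟩⟩

theorem Pr.sub1 (hp : p.Prime) (hg : 1 ≤ g) (h : D 1) : Pr p g D U (p ^ g - 1) := by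
  have := Pr.sub (U := U) hp hg le_rfl h
  rwa [pow_one] at this

/-- from an order formula -/
theorem Dat.of (hp : p.Prime) {c N d R : ℕ} (hd : ¬ p ∣ d) (h : d * c = (p ^ g) ^ N * R) (hR : Pr p g D U R) :
    Dat p c g N D U := by
  have hR0 : R ≠ 0 := fun h0 => hR.1 (h0 ▸ dvd_zero p)
  have hd0 : d ≠ 0 := fun h0 => hd (h0 ▸ dvd_zero p)
  have hp0 : (p ^ g) ^ N ≠ 0 := pow_ne_zero _ (pow_ne_zero _ hp.ne_zero)
  have hc0 : c ≠ 0 := by
    rintro rfl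
    rw [mul_zero] at h
    exact mul_ne_zero hp0 hR0 h.symm
  refine ⟨?_, fun t ht htc htp => ?_⟩
  · have h1 := congrArg (fun x : ℕ => x.factorization p) h
    rw [Nat.factorization_mul hd0 hc0, Nat.factorization_mul hp0 hR0, Finsupp.add_apply, Finsupp.add_apply,
      Nat.factorization_eq_zero_of_not_dvd hd, Nat.factorization_eq_zero_of_not_dvd hR.1, ← pow_mul,
      hp.factorization_pow, Finsupp.single_eq_same] at h1
    omega
  · have h1 : t ∣ (p ^ g) ^ N * R := by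
      rw [← h]
      exact Dvd.dvd.mul_left htc d
    rcases ht.dvd_mul.1 h1 with h2 | h2
    · exact absurd ((Nat.prime_dvd_prime_iff_eq ht hp).1 (ht.dvd_of_dvd_pow (ht.dvd_of_dvd_pow h2))) htp
    · rcases hR.2 t ht h2 with ⟨d, h3, h4⟩ | ⟨i, h3, h4⟩
      · exact Or.inl ⟨d, h3, by rwa [pow_mul]⟩
      · exact Or.inr ⟨i, h3, by rwa [pow_mul]⟩

end

theorem glN_eq (n q : ℕ) : q ^ (n * (n - 1) / 2) * ∏ i ∈ Finset.range n, (q ^ (i + 1) - 1) =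
    ∏ i ∈ Finset.range n, (q ^ n - q ^ i) := by
  have h1 : ∀ i ∈ Finset.range n, q ^ n - q ^ i = q ^ i * (q ^ (n - i) - 1) := by
    intro i hi
    rw [Finset.mem_range] at hi
    rw [Nat.mul_sub, mul_one, ← pow_add, Nat.add_sub_cancel' hi.le]
  rw [Finset.prod_congr rfl h1, Finset.prod_mul_distrib, Finset.prod_pow_eq_pow_sum, Finset.sum_range_id]
  congr 1
  rw [← Finset.prod_range_reflect]
  apply Finset.prod_congr rfl
  intro i hi
  rw [Finset.mem_range] at hi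
  congr 2
  omega

theorem exists_card {F : Type} [Field F] [Fintype F] {p : ℕ} (hp : p.Prime) [CharP F p] :
    ∃ g, 1 ≤ g ∧ Fintype.card F = p ^ g := by
  obtain ⟨g, -, hg⟩ := FiniteField.card F p
  exact ⟨g, g.pos, hg⟩

theorem exists_root {F : Type} [Field F] [Fintype F] {p : ℕ} (hp : p.Prime) [CharP F p] {q k : ℕ}
    (h : Fintype.card F = q ^ k) (hk : 1 ≤ k) : ∃ g, 1 ≤ g ∧ q = p ^ g := by
  obtain ⟨f, hf, hF⟩ := exists_card (F := F) hp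
  have h1 : q ∣ p ^ f := by
    rw [← hF, h]
    exact dvd_pow_self _ (by omega)
  obtain ⟨g, -, hg⟩ := (Nat.dvd_prime_pow hp).1 h1
  refine ⟨g, ?_, hg⟩
  rcases Nat.eq_zero_or_pos g with h0 | h0
  · exfalso
    rw [hg, h0, pow_zero, one_pow] at h
    have := Fintype.one_lt_card (α := F)
    omega
  · exact h0

theorem not_dvd_gcd_sub {p g k a : ℕ} (hp : p.Prime) (hg : 1 ≤ g) (hk : 1 ≤ k) : ¬ p ∣ Nat.gcd a ((p ^ g) ^ k - 1) :=
  fun h => not_dvd_sub hp hg hk (h.trans (Nat.gcd_dvd_right _ _))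

theorem not_dvd_gcd_add {p g k a : ℕ} (hp : p.Prime) (hg : 1 ≤ g) (hk : 1 ≤ k) : ¬ p ∣ Nat.gcd a ((p ^ g) ^ k + 1) :=
  fun h => not_dvd_add hp hg hk (h.trans (Nat.gcd_dvd_right _ _))

theorem not_dvd_one {p : ℕ} (hp : p.Prime) : ¬ p ∣ 1 := fun h => hp.one_lt.ne' (Nat.dvd_one.1 h)

/-! ### the families -/

/-- the conclusion -/
def Has (p c : ℕ) : Prop := ∃ g N D U, 1 ≤ g ∧ Kind N D U ∧ Dat p c g N D U

section fam

variable {F : Type} [Field F] [Fintype F] {p : ℕ}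

theorem has_psl (hp : p.Prime) [CharP F p] {n : ℕ} (hn : 2 ≤ n) :
    Has p (Nat.card (Matrix.ProjectiveSpecialLinearGroup (Fin n) F)) := by
  obtain ⟨g, hg, hF⟩ := exists_card (F := F) hp
  refine ⟨g, _, _, _, hg, Kind.A n hn, ?_⟩
  have h := S0243.result (F := F) rfl n hn
  rw [Fin.prod_univ_eq_prod_range (fun i => Fintype.card F ^ n - Fintype.card F ^ i) n, ← glN_eq, hF, ← mul_assoc] at h
  refine Dat.of hp ?_ h (Pr.prod hp n fun i hi => ?_)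
  rotate_left
  · rcases Nat.eq_zero_or_pos i with rfl | h0
    · refine (Pr.sub hp hg (k := 2) (by norm_num) ⟨le_rfl, hn⟩).of_dvd ?_
      have := sub_dvd (p ^ g) 1
      rwa [mul_one] at this
    · exact Pr.sub hp hg (by omega) ⟨by omega, by omega⟩
  · have h1 := not_dvd_sub hp hg (k := 1) le_rfl
    rw [pow_one] at h1
    intro h2
    rcases hp.dvd_mul.1 h2 with h3 | h3
    · exact h1 (h3.trans (Nat.gcd_dvd_right _ _))
    · exact h1 h3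

theorem pr_B (hp : p.Prime) {g : ℕ} (hg : 1 ≤ g) {D U : ℕ → Prop} {m : ℕ} (h : ∀ i, 1 ≤ i → i ≤ m → D (2 * i)) :
    Pr p g D U (∏ i ∈ Finset.range m, ((p ^ g) ^ (2 * (i + 1)) - 1)) :=
  Pr.prod hp m fun i hi => Pr.sub hp hg (by omega) (h (i + 1) (by omega) (by omega))

theorem has_psp (hp : p.Prime) [CharP F p] {m : ℕ} (hm : 2 ≤ m) : Has p (Nat.card (PSp m F)) := by
  obtain ⟨g, hg, hF⟩ := exists_card (F := F) hp
  refine ⟨g, _, _, _, hg, Kind.B m hm, ?_⟩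
  have h1 := S0245.result (F := F) rfl m
  have h2 := S0246.result (F := F) rfl m (by omega)
  have h3 := Subgroup.card_eq_card_quotient_mul_card_subgroup
    (Subgroup.center (Matrix.symplecticGroup (Fin m) F))
  rw [h1, h2, hF] at h3
  refine Dat.of hp (d := Nat.gcd 2 (p ^ g - 1)) ?_ (by rw [mul_comm]; exact h3.symm)
    (pr_B hp hg fun i h1 h2 => ⟨i, h1, h2, rfl⟩)
  have := not_dvd_gcd_sub (a := 2) hp hg (k := 1) le_rfl
  rwa [pow_one] at this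

theorem has_psu (hp : p.Prime) [CharP F p] {n q : ℕ} (hq : Fintype.card F = q ^ 2) (hn : 3 ≤ n) :
    Has p (Nat.card (PSU n F q)) := by
  obtain ⟨g, hg, rfl⟩ := exists_root (F := F) hp hq (by norm_num)
  refine ⟨g, _, _, _, hg, Kind.U n hn, ?_⟩
  have h := S0280.result hq n (by omega)
  rw [← mul_assoc] at h
  refine Dat.of hp ?_ h (Pr.prod hp n fun i hi => ?_)
  rotate_left
  · split_ifs with he
    · exact Pr.add hp hg (by omega) ⟨he.add_one, by omega⟩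
    · rw [Nat.not_even_iff_odd] at he
      have h0 : i ≠ 0 := by
        rintro rfl
        exact absurd he (by decide)
      exact Pr.sub hp hg (by omega) ⟨he.add_one, by omega, by omega⟩
  · have h1 := not_dvd_add hp hg (k := 1) le_rfl
    rw [pow_one] at h1
    intro h2
    rcases hp.dvd_mul.1 h2 with h3 | h3
    · exact h1 (h3.trans (Nat.gcd_dvd_right _ _))
    · exact h1 h3

theorem has_oodd (hp : p.Prime) [CharP F p] {m : ℕ} (hm : 3 ≤ m) (ho : Odd (Fintype.card F)) :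
    Has p (Nat.card (POmega F (quadFormOdd m F))) := by
  obtain ⟨g, hg, hF⟩ := exists_card (F := F) hp
  refine ⟨g, _, _, _, hg, Kind.B m (by omega), ?_⟩
  have h := S0292.result (F := F) rfl ho m hm
  rw [hF] at h ho
  refine Dat.of hp (d := 2) ?_ h (pr_B hp hg fun i h1 h2 => ⟨i, h1, h2, rfl⟩)
  intro h1
  have h2 : p = 2 := (Nat.prime_dvd_prime_iff_eq hp Nat.prime_two).1 h1
  rw [h2] at ho
  exact (Nat.not_even_iff_odd.2 ho) (Nat.even_pow.2 ⟨even_two, by omega⟩)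

theorem has_oplus (hp : p.Prime) [CharP F p] {m : ℕ} (hm : 4 ≤ m) :
    Has p (Nat.card (POmega F (quadFormPlus m F))) := by
  obtain ⟨g, hg, hF⟩ := exists_card (F := F) hp
  refine ⟨g, _, _, _, hg, Kind.D m hm, ?_⟩
  have h := S0293.result (F := F) rfl m hm
  rw [hF, mul_assoc] at h
  refine Dat.of hp (not_dvd_gcd_sub hp hg (by omega)) h (Pr.mul hp (Pr.sub hp hg (by omega) (Or.inl rfl))
    (pr_B hp hg fun i h1 h2 => Or.inr ⟨i, h1, by omega, rfl⟩))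

theorem has_ominus (hp : p.Prime) [CharP F p] {m : ℕ} (hm : 4 ≤ m) {a b : F}
    (hab : ∀ z₁ z₂ : F, z₁ ^ 2 + a * z₁ * z₂ + b * z₂ ^ 2 = 0 → z₁ = 0 ∧ z₂ = 0) :
    Has p (Nat.card (POmega F (quadFormMinus (m - 1) F a b))) := by
  obtain ⟨g, hg, hF⟩ := exists_card (F := F) hp
  refine ⟨g, _, _, _, hg, Kind.D2 m hm, ?_⟩
  have h := S0294.result (F := F) rfl m hm a b hab
  rw [hF, mul_assoc] at h
  refine Dat.of hp (not_dvd_gcd_add hp hg (by omega)) h (Pr.mul hp (Pr.add' hp hg (by omega) ⟨m, by omega, le_rfl, rfl⟩)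
    (pr_B hp hg fun i h1 h2 => ⟨i, h1, by omega, rfl⟩))

/-- one-parameter families -/
theorem pr_list (hp : p.Prime) {g : ℕ} (hg : 1 ≤ g) {l : List ℕ} {U : ℕ → Prop} {k : ℕ} (hk : 1 ≤ k) (h : k ∈ l) :
    Pr p g (fun d => d ∈ l) U ((p ^ g) ^ k - 1) := Pr.sub hp hg hk h

theorem has_g2 (tab : OrderTable.{u}) (hp : p.Prime) [CharP F p] : Has p (Nat.card ↥(Lie.chevG2.group F)) := by
  obtain ⟨g, hg, hF⟩ := exists_card (F := F) hp
  refine ⟨g, _, _, _, hg, Kind.G2, ?_⟩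
  have h := tab.g2 F
  rw [hF, mul_assoc, ← one_mul (Nat.card _)] at h
  exact Dat.of hp (not_dvd_one hp) h (Pr.mul hp (pr_list hp hg (by norm_num) (by simp)) (pr_list hp hg (by norm_num) (by simp)))

theorem has_f4 (tab : OrderTable.{u}) (hp : p.Prime) [CharP F p] : Has p (Nat.card ↥(Lie.chevF4.group F)) := by
  obtain ⟨g, hg, hF⟩ := exists_card (F := F) hp
  refine ⟨g, _, _, _, hg, Kind.F4, ?_⟩
  have h := tab.f4 F _ rfl
  rw [hF, ← one_mul (Nat.card _)] at h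
  simp only [mul_assoc ((p ^ g) ^ 24)] at h
  refine Dat.of hp (not_dvd_one hp) h ?_
  repeat' refine Pr.mul hp ?_ ?_
  all_goals exact pr_list hp hg (by norm_num) (by simp)

theorem has_e6 (tab : OrderTable.{u}) (hp : p.Prime) [CharP F p] : Has p (Nat.card ↥(Lie.chevE6.group F)) := by
  obtain ⟨g, hg, hF⟩ := exists_card (F := F) hp
  refine ⟨g, _, _, _, hg, Kind.E6, ?_⟩
  have h := tab.e6 F _ rfl
  rw [hF] at h
  simp only [mul_assoc ((p ^ g) ^ 36)] at h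
  have h0 := not_dvd_gcd_sub (a := 3) hp hg (k := 1) le_rfl
  rw [pow_one] at h0
  refine Dat.of hp h0 h ?_
  repeat' refine Pr.mul hp ?_ ?_
  all_goals exact pr_list hp hg (by norm_num) (by simp)

theorem has_e7 (tab : OrderTable.{u}) (hp : p.Prime) [CharP F p] : Has p (Nat.card ↥(Lie.chevE7.group F)) := by
  obtain ⟨g, hg, hF⟩ := exists_card (F := F) hp
  refine ⟨g, _, _, _, hg, Kind.E7, ?_⟩
  have h := tab.e7 F _ rfl
  rw [hF] at h
  simp only [mul_assoc ((p ^ g) ^ 63)] at h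
  have h0 := not_dvd_gcd_sub (a := 2) hp hg (k := 1) le_rfl
  rw [pow_one] at h0
  refine Dat.of hp h0 h ?_
  repeat' refine Pr.mul hp ?_ ?_
  all_goals exact pr_list hp hg (by norm_num) (by simp)

theorem has_e8 (tab : OrderTable.{u}) (hp : p.Prime) [CharP F p] : Has p (Nat.card ↥(Lie.chevE8.group F)) := by
  obtain ⟨g, hg, hF⟩ := exists_card (F := F) hp
  refine ⟨g, _, _, _, hg, Kind.E8, ?_⟩
  have h := tab.e8 F _ rfl
  rw [hF, ← one_mul (Nat.card _)] at h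
  simp only [mul_assoc ((p ^ g) ^ 120)] at h
  refine Dat.of hp (not_dvd_one hp) h ?_
  repeat' refine Pr.mul hp ?_ ?_
  all_goals exact pr_list hp hg (by norm_num) (by simp)

theorem has_te6 (tab : OrderTable.{u}) (hp : p.Prime) [CharP F p] {q : ℕ} (hq : IsPrimePow q) (h2 : Fintype.card F = q ^ 2) :
    Has p (Nat.card ↥(Lie.twistedE6 F q)) := by
  obtain ⟨g, hg, rfl⟩ := exists_root (F := F) hp h2 (by norm_num)
  refine ⟨g, _, _, _, hg, Kind.TE6, ?_⟩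
  have h := tab.te6 F _ hq h2
  simp only [mul_assoc ((p ^ g) ^ 36)] at h
  have h0 := not_dvd_gcd_add (a := 3) hp hg (k := 1) le_rfl
  rw [pow_one] at h0
  refine Dat.of hp h0 h ?_
  repeat' refine Pr.mul hp ?_ ?_
  all_goals first
    | exact pr_list hp hg (by norm_num) (by simp)
    | exact Pr.add hp hg (by norm_num) (by simp)

theorem has_td4 (tab : OrderTable.{u}) (hp : p.Prime) [CharP F p] {q : ℕ} (hq : IsPrimePow q) (h2 : Fintype.card F = q ^ 3) :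
    Has p (Nat.card ↥(Lie.twistedD4 F q)) := by
  obtain ⟨g, hg, rfl⟩ := exists_root (F := F) hp h2 (by norm_num)
  refine ⟨g, _, _, _, hg, Kind.TD4, ?_⟩
  have h := tab.td4 F _ hq h2
  rw [← one_mul (Nat.card _)] at h
  simp only [mul_assoc ((p ^ g) ^ 12)] at h
  refine Dat.of hp (not_dvd_one hp) h ?_
  refine Pr.mul hp (Pr.mul hp ?_ ?_) ?_
  · exact pr_list hp hg (by norm_num) (by simp)
  · exact pr_list hp hg (by norm_num) (by simp)
  · refine (pr_list hp hg (k := 12) (by norm_num) (by simp)).of_dvd ⟨(p ^ g) ^ 4 - 1, ?_⟩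
    obtain ⟨c, hc⟩ : ∃ c, (p ^ g) ^ 4 = c + 1 := ⟨(p ^ g) ^ 4 - 1, by
      have : 1 ≤ (p ^ g) ^ 4 := Nat.one_le_pow _ _ (Nat.pow_pos hp.pos)
      omega⟩
    have h8 : (p ^ g) ^ 8 = (c + 1) ^ 2 := by rw [← hc, ← pow_mul (p ^ g) 4 2]
    have h12 : (p ^ g) ^ 12 = (c + 1) ^ 3 := by rw [← hc, ← pow_mul (p ^ g) 4 3]
    rw [h8, h12, hc, Nat.add_sub_cancel]
    have : (c + 1) ^ 3 = ((c + 1) ^ 2 + (c + 1) + 1) * c + 1 := by ring
    rw [this, Nat.add_sub_cancel]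

theorem has_sz (tab : OrderTable.{u}) {m : ℕ} (hm : 1 ≤ m) (hF : Fintype.card F = 2 ^ (2 * m + 1)) :
    Has 2 (Nat.card ↥(Lie.Sz F (2 ^ (m + 1)))) := by
  have hg : 1 ≤ 2 * m + 1 := by omega
  refine ⟨2 * m + 1, _, _, _, hg, Kind.Sz, ?_⟩
  have h := tab.sz F m hm hF
  rw [mul_assoc, ← one_mul (Nat.card _)] at h
  exact Dat.of Nat.prime_two (by norm_num) h (Pr.mul Nat.prime_two (Pr.sub1 Nat.prime_two hg (by simp))
    (Pr.add' Nat.prime_two hg (by norm_num) (by simp)))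

theorem has_ree (tab : OrderTable.{u}) {m : ℕ} (hm : 1 ≤ m) (hF : Fintype.card F = 3 ^ (2 * m + 1)) :
    Has 3 (Nat.card ↥(Lie.twistedG2 F (3 ^ m))) := by
  have hg : 1 ≤ 2 * m + 1 := by omega
  refine ⟨2 * m + 1, _, _, _, hg, Kind.Ree, ?_⟩
  have h := tab.ree F m hm hF
  rw [mul_assoc, ← one_mul (Nat.card _)] at h
  exact Dat.of Nat.prime_three (by norm_num) h (Pr.mul Nat.prime_three (Pr.sub1 Nat.prime_three hg (by simp))
    (Pr.add' Nat.prime_three hg (by norm_num) (by simp)))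

theorem has_tf4 (tab : OrderTable.{u}) {m : ℕ} (hm : 1 ≤ m) (hF : Fintype.card F = 2 ^ (2 * m + 1)) :
    Has 2 (Nat.card ↥(Lie.twistedF4 F (2 ^ m))) := by
  have hg : 1 ≤ 2 * m + 1 := by omega
  have h2 := Nat.prime_two
  refine ⟨2 * m + 1, _, _, _, hg, Kind.TF4, ?_⟩
  have h := tab.tf4 F m hm hF
  rw [← one_mul (Nat.card _)] at h
  simp only [mul_assoc ((2 ^ (2 * m + 1)) ^ 12)] at h
  refine Dat.of h2 (by norm_num) h (Pr.mul h2 (Pr.mul h2 (Pr.mul h2 ?_ ?_) ?_) ?_)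
  · exact Pr.sub1 h2 hg (by simp)
  · exact Pr.add' h2 hg (by norm_num) (by simp)
  · exact pr_list h2 hg (by norm_num) (by simp)
  · exact Pr.add' h2 hg (by norm_num) (by simp)

end fam

/-- **the table** -/
theorem exists_kind (tab : OrderTable.{u}) {S : Type u} [Group S] {p : ℕ} (hp : p.Prime)
    (hS : IsLieTypeChar p S) : ∃ g N D U, 1 ≤ g ∧ Kind N D U ∧ Dat p (Nat.card S) g N D U := by
  rcases hS with h | h | h | h | h | h | h | h | ⟨rfl, h⟩ | ⟨rfl, h⟩ | ⟨rfl, h⟩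
  · obtain ⟨F, _, _, _, n, hn, -, ⟨e⟩⟩ := h
    rw [Nat.card_congr e.toEquiv]
    exact has_psl hp hn
  · obtain ⟨F, _, _, _, n, hn, -, ⟨e⟩⟩ := h
    rw [Nat.card_congr e.toEquiv]
    exact has_psp hp hn
  · obtain ⟨F, _, _, _, n, q, hq, hn, -, ⟨e⟩⟩ := h
    rw [Nat.card_congr e.toEquiv]
    exact has_psu hp hq hn
  · obtain ⟨F, _, _, _, m, hm, ho, ⟨e⟩⟩ := h
    rw [Nat.card_congr e.toEquiv]
    exact has_oodd hp hm ho
  · obtain ⟨F, _, _, _, m, hm, ⟨e⟩⟩ := h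
    rw [Nat.card_congr e.toEquiv]
    exact has_oplus hp hm
  · obtain ⟨F, _, _, _, m, a, b, hm, hab, ⟨e⟩⟩ := h
    rw [Nat.card_congr e.toEquiv]
    exact has_ominus hp hm hab
  · obtain ⟨F, _, _, _, ⟨-, ⟨e⟩⟩ | ⟨⟨e⟩⟩ | ⟨⟨e⟩⟩ | ⟨⟨e⟩⟩ | ⟨⟨e⟩⟩⟩ := h <;> rw [Nat.card_congr e.toEquiv]
    · exact has_g2 tab hp
    · exact has_f4 tab hp
    · exact has_e6 tab hp
    · exact has_e7 tab hp
    · exact has_e8 tab hp
  · obtain ⟨F, _, _, _, q, hq, ⟨hF, ⟨e⟩⟩ | ⟨hF, ⟨e⟩⟩⟩ := h <;> rw [Nat.card_congr e.toEquiv]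
    · exact has_te6 tab hp hq hF
    · exact has_td4 tab hp hq hF
  · obtain ⟨F, _, _, m, hm, hF, ⟨e⟩⟩ := h
    rw [Nat.card_congr e.toEquiv]
    exact has_sz tab hm hF
  · obtain ⟨F, _, _, m, hm, hF, ⟨e⟩⟩ := h
    rw [Nat.card_congr e.toEquiv]
    exact has_tf4 tab hm hF
  · obtain ⟨F, _, _, m, hm, hF, ⟨e⟩⟩ := h
    rw [Nat.card_congr e.toEquiv]
    exact has_ree tab hm hF

end Cfsg.Agent.H142.Rd
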